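import Cfsg.Agent.AutOrth.Main
import Cfsg.Agent.ClassicalGeometry.OrthDickson
import Cfsg.Agent.ClassicalGeometry.SpinorSign
import Cfsg.Agent.ClassicalGeometry.GenReflections
import Cfsg.Agent.H649.VanC.Descent

/-!
# Vanishing elements of `PΩ(Q)`: descent from the isometry group (helper679, S4555 / S4559)

* `cover` : if `x` fixes a hyperbolic pair then every `g x g⁻¹` is a conjugate of `x` under `Ω(Q)`;
* `Gd` : a set of elements of `Ω(Q)` which is stable under semisimilarities;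
* `vz_of` : the descent.
-/

set_option autoImplicit false

namespace Cfsg.Agent.H679.VanO

open Matrix QuadraticMap Cfsg Cfsg.Agent.ClassicalGeometry.Reflection Cfsg.Agent.ClassicalGeometry.OrthDickson
open Cfsg.Agent.LieClassical.OrthCore Cfsg.Agent.LieClassical.OrthTrans
  Cfsg.Agent.LieClassical.OrthSimple Cfsg.Agent.AutOrth.SemiSim Cfsg.Agent.AutOrth.Gen
  Cfsg.Agent.AutOrth.Extend Cfsg.Agent.ClassicalGeometry.OrthAut1 Cfsg.Agent.LieClassical.QuadForms
  Cfsg.Agent.LieClassical.OrthFinite Cfsg.Agent.LieClassical Cfsg.Agent.AutOrth.Main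

variable {ι : Type} [Fintype ι] [DecidableEq ι] {F : Type*} [Field F] {Q : QuadraticForm F (ι → F)}

/-- the action of an isometry -/
abbrev ac (g : isometryGroup F (⇑Q)) (v : ι → F) : ι → F :=
  ((g : Matrix.GeneralLinearGroup ι F) : Matrix ι ι F) *ᵥ v

theorem exists_eq_reflIso {g : isometryGroup F (⇑Q)} {v : ι → F} (hv : Q v ≠ 0)
    (h : ((g : Matrix.GeneralLinearGroup ι F) : Matrix ι ι F) = reflectionMatrix (⇑Q) v) : g = reflIso Q v hv := by
  apply isometryGroup_ext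
  rw [h, coe_reflIso]
  intro x
  rfl

/-- **Reflections of equal norm are congruent modulo the commutator subgroup.** -/
theorem refl_mul_mem [Finite F] (hQ : (polarBilin Q).Nondegenerate) (h4 : Fintype.card ι ≠ 4) {v w : ι → F}
    (hv : Q v ≠ 0) (hw : Q w ≠ 0) (h : Q v = Q w) :
    reflIso Q v hv * reflIso Q w hw ∈ commutator (isometryGroup F (⇑Q)) := by
  by_cases h2 : (2 : F) = 0
  · exact refl_mul_refl_mem_two Q h2 hQ (Or.inr h4) v w hv hw
  · obtain ⟨u, hu, e⟩ := Cfsg.Agent.ClassicalGeometry.SpinorSign.exists_conj_reflIso h2 Q hv hw h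
    have e1 : reflIso Q v hv * reflIso Q w hw =
        reflIso Q v hv * reflIso Q u hu * (reflIso Q v hv)⁻¹ * (reflIso Q u hu)⁻¹ := by
      rw [e, reflIso_inv, reflIso_inv]
      group
    rw [e1]
    exact Subgroup.commutator_mem_commutator (Subgroup.mem_top _) (Subgroup.mem_top _)

theorem exists_norm {e f : ι → F} (h1 : Q e = 0) (h2 : Q f = 0) (h3 : polar Q e f ≠ 0) (c : F) :
    ∃ s : F, Q (s • e + f) = c := by
  refine ⟨c / polar Q e f, ?_⟩
  rw [map_add', QuadraticMap.map_smul, h1, h2, polar_smul_left, smul_eq_mul, smul_eq_mul, mul_zero, zero_add,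
    zero_add, div_mul_cancel₀ _ h3]

/-- **Conjugates of elements fixing a hyperbolic pair.** -/
theorem cover [Finite F] (hQ : (polarBilin Q).Nondegenerate) (h4 : Fintype.card ι ≠ 4) {x : isometryGroup F (⇑Q)}
    {e f : ι → F} (he : ac x e = e) (hf : ac x f = f) (h1 : Q e = 0) (h2 : Q f = 0) (h3 : polar Q e f ≠ 0)
    (g : isometryGroup F (⇑Q)) : ∃ n : Omega F (⇑Q), g * x * g⁻¹ = (n : isometryGroup F (⇑Q)) * x *
      (n : isometryGroup F (⇑Q))⁻¹ := by
  have htop : (⊤ : Subgroup (isometryGroup F (⇑Q))) ≤ commutator (isometryGroup F (⇑Q)) ⊔ Subgroup.centralizer {x} := by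
    rw [← Cfsg.Agent.ClassicalGeometry.GenReflections.closure_reflections_eq_top Q hQ (Or.inr h4), Subgroup.closure_le]
    rintro r ⟨v, hv, hr⟩
    obtain ⟨s, hs⟩ := exists_norm h1 h2 h3 (Q v)
    have hw : Q (s • e + f) ≠ 0 := by rw [hs]; exact hv
    have hxw : ac x (s • e + f) = s • e + f := by
      show _ *ᵥ _ = _
      rw [mulVec_add, mulVec_smul]
      exact congrArg₂ _ (congrArg _ he) hf
    have hc : x * reflIso Q (s • e + f) hw * x⁻¹ = reflIso Q (s • e + f) hw := by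
      rw [conj_reflIso Q (s • e + f) hw x (by show Q (ac x _) ≠ 0; rw [hxw]; exact hw)]
      congr 1
    have hm := refl_mul_mem hQ h4 hv hw hs.symm
    have e1 : r = (reflIso Q v hv * reflIso Q (s • e + f) hw) * reflIso Q (s • e + f) hw := by
      rw [mul_assoc, reflIso_mul_self, mul_one]
      exact exists_eq_reflIso hv hr
    rw [e1]
    refine mul_mem (Subgroup.mem_sup_left hm) (Subgroup.mem_sup_right ?_)
    rw [Subgroup.mem_centralizer_singleton_iff]
    exact (mul_inv_eq_iff_eq_mul.1 hc).symm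
  have hg := htop (Subgroup.mem_top g)
  rw [Subgroup.mem_sup_of_normal_left] at hg
  obtain ⟨d, hd, c, hc, rfl⟩ := hg
  rw [Subgroup.mem_centralizer_singleton_iff] at hc
  refine ⟨⟨d, hd⟩, ?_⟩
  show d * c * x * (d * c)⁻¹ = d * x * d⁻¹
  rw [_root_.mul_inv_rev, mul_assoc d c x, hc]
  group

/-- the elements -/
structure Gd (Q : (ι → F) → F) (p N₀ : ℕ) (x : Omega F Q) : Prop where
  ord : orderOf x = p
  hyp : ∃ e f : ι → F, (x : isometryGroup F Q).1.val *ᵥ e = e ∧ (x : isometryGroup F Q).1.val *ᵥ f = f ∧ Q e = 0 ∧ Q f = 0 ∧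
    polar Q e f ≠ 0
  sing : ∃ u : ι → F, (x : isometryGroup F Q).1.val *ᵥ u - u ≠ 0 ∧ Q ((x : isometryGroup F Q).1.val *ᵥ u - u) = 0
  dim : N₀ ≤ Nat.card {v : ι → F // (x : isometryGroup F Q).1.val *ᵥ v = v}

/-- **`Gd` is stable under semisimilarities.** -/
theorem Gd.conj [Finite F] (hG : Good Q) {T : (ι → F) ≃+ (ι → F)} {σ : F ≃+* F} {c : F} (hT : IsSemi Q T σ c)
    {p N₀ : ℕ} {x : Omega F (⇑Q)} (h : Gd (⇑Q) p N₀ x) :
    ∃ y : Omega F (⇑Q), Gd (⇑Q) p N₀ y ∧ ∀ v, (y : isometryGroup F (⇑Q)).1.val *ᵥ (T v) =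
      T ((x : isometryGroup F (⇑Q)).1.val *ᵥ v) := by
  obtain ⟨y, hy⟩ : ∃ y, y = (oe hG).symm (conjE hT (oe hG x)) := ⟨_, rfl⟩
  have hyT : ∀ v, (y : isometryGroup F (⇑Q)).1.val *ᵥ (T v) = T ((x : isometryGroup F (⇑Q)).1.val *ᵥ v) := by
    intro v
    have h1 := conjE_apply hT (oe hG x) v
    rw [oe_apply] at h1
    rw [← h1, hy]
    exact (oe_apply hG _ _).symm.trans (by rw [MulEquiv.apply_symm_apply])
  have hpol : ∀ u v, polar Q (T u) (T v) = c * σ (polar Q u v) := by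
    intro u v
    rw [polar, polar, ← map_add, hT.form, hT.form, hT.form, map_sub, map_sub]
    ring
  refine ⟨y, ⟨?_, ?_, ?_, ?_⟩, hyT⟩
  · rw [hy, MulEquiv.orderOf_eq, MulEquiv.orderOf_eq, MulEquiv.orderOf_eq, h.ord]
  · obtain ⟨e, f, h1, h2, h3, h4, h5⟩ := h.hyp
    refine ⟨T e, T f, by rw [hyT, h1], by rw [hyT, h2], by rw [hT.form, h3, map_zero, mul_zero],
      by rw [hT.form, h4, map_zero, mul_zero], ?_⟩
    rw [hpol]
    exact mul_ne_zero hT.ne ((map_ne_zero σ).2 h5)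
  · obtain ⟨u, h1, h2⟩ := h.sing
    refine ⟨T u, ?_, ?_⟩
    · rw [hyT, ← map_sub]
      exact (map_ne_zero_iff T T.injective).2 h1
    · rw [hyT, ← map_sub, hT.form, h2, map_zero, mul_zero]
  · refine h.dim.trans (le_of_eq (Nat.card_congr ?_))
    exact T.toEquiv.subtypeEquiv fun v => by
      rw [show T.toEquiv v = T v from rfl, hyT]
      exact (T.injective.eq_iff).symm

/-- **The descent to `PΩ(Q)`.** -/
theorem vz_of [Finite F] (hG : Good Q) (hQ : (polarBilin Q).Nondegenerate) (h4 : Fintype.card ι ≠ 4)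
    {Q' : (ι → F) → F} (hQQ : ⇑Q = Q')
    (hind : ∀ α : MulAut (POmega F Q'), Ind Q' α) {p N₀ : ℕ} {χ : isometryGroup F Q' → ℂ}
    (hχ : IsIrrCharacter (isometryGroup F Q') χ)
    (hz : ∀ z : Omega F Q', z ∈ Subgroup.center (Omega F Q') → χ z = χ 1)
    (h0 : ∀ x : Omega F Q', Gd Q' p N₀ x → χ x = 0) {x : Omega F Q'} (hx : Gd Q' p N₀ x) :
    H713.VZ (POmega F Q') (QuotientGroup.mk x) := by
  subst hQQ
  have : Finite (isometryGroup F (⇑Q)) := inferInstance
  refine Cfsg.Agent.H649.VanC.vz_down (Omega F (⇑Q)) hχ hz {x | Gd (⇑Q) p N₀ x} ?_ (fun x hx => h0 x hx) ?_ x hx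
  · rintro x hx g
    obtain ⟨e, f, h1, h2, h3, h4', h5⟩ := hx.hyp
    exact cover hQ h4 h1 h2 h3 h4' h5 g
  · rintro α x hx
    obtain ⟨σ, μ, T, ⟨hμ, hs, hQT⟩, hT⟩ := hind α
    obtain ⟨y, hy, hyT⟩ := Gd.conj hG (T := T) (σ := σ) (c := μ) ⟨hμ, hs, hQT⟩ hx
    exact ⟨y, hy, hT x y hyT⟩

end Cfsg.Agent.H679.VanO
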