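import Cfsg.Agent.H679.VanO.Desc

/-!
# Elements `y ⊕ y⁻ᵀ ⊕ 1` of the isometry groups (helper679, S4555 / S4559)

* `blk` : `GL₂(F) → GL_{2+j}(F)`;
* `lev` : `GL_l(F) → O(quadFormMinus l F a b)`;
* `L` : the composition; `L_fix`, `L_gd`.
-/

set_option autoImplicit false

namespace Cfsg.Agent.H679.VanO

open Matrix QuadraticMap Cfsg Cfsg.Agent.ClassicalGeometry.Reflection Cfsg.Agent.ClassicalGeometry.OrthDickson
open Cfsg.Agent.LieClassical.OrthCore Cfsg.Agent.LieClassical.OrthTrans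
  Cfsg.Agent.LieClassical.OrthSimple Cfsg.Agent.AutOrth.SemiSim Cfsg.Agent.AutOrth.Gen
  Cfsg.Agent.AutOrth.Extend Cfsg.Agent.ClassicalGeometry.OrthAut1 Cfsg.Agent.LieClassical.QuadForms
  Cfsg.Agent.LieClassical.OrthFinite Cfsg.Agent.LieClassical Cfsg.Agent.AutOrth.Main

variable {F : Type*} [Field F]

/-- `GL₂ → GL_{2+j}` -/
noncomputable def blk (F : Type*) [Field F] (j : ℕ) : GL (Fin 2) F →* GL (Fin (2 + j)) F :=
  Units.map
    { toFun := fun y => reindex finSumFinEquiv finSumFinEquiv (fromBlocks y 0 0 (1 : Matrix (Fin j) (Fin j) F))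
      map_one' := by
        rw [fromBlocks_one]
        simp
      map_mul' := fun y z => by
        rw [reindex_apply, reindex_apply, reindex_apply, submatrix_mul_equiv, fromBlocks_multiply]
        simp }

theorem blk_mulVec {j : ℕ} (y : GL (Fin 2) F) (u : Fin 2 → F) (w : Fin j → F) :
    (blk F j y).val *ᵥ (Sum.elim u w ∘ finSumFinEquiv.symm) =
      Sum.elim (y.val *ᵥ u) w ∘ finSumFinEquiv.symm := by
  show (reindex finSumFinEquiv finSumFinEquiv (fromBlocks y.val 0 0 (1 : Matrix (Fin j) (Fin j) F))) *ᵥ _ = _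
  rw [reindex_apply, submatrix_mulVec_equiv]
  congr 1
  rw [Function.comp_assoc]
  simp [fromBlocks_mulVec]

/-- `GL_l → O⁻` as matrices -/
noncomputable def levM (F : Type*) [Field F] (l : ℕ) : GL (Fin l) F →* Matrix ((Fin l ⊕ Fin l) ⊕ Fin 2) ((Fin l ⊕ Fin l) ⊕ Fin 2) F where
  toFun g := fromBlocks (fromBlocks g.val 0 0 (g⁻¹).valᵀ) 0 0 1
  map_one' := by simp
  map_mul' g h := by
    rw [fromBlocks_multiply, fromBlocks_multiply]
    simp [_root_.mul_inv_rev]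

theorem quad_levM {l : ℕ} (a b : F) (g : GL (Fin l) F) (v : (Fin l ⊕ Fin l) ⊕ Fin 2 → F) :
    quadFormMinus l F a b (levM F l g *ᵥ v) = quadFormMinus l F a b v := by
  have h1 : levM F l g *ᵥ v = Sum.elim (Sum.elim (g.val *ᵥ (fun i => v (.inl (.inl i))))
      ((g⁻¹).valᵀ *ᵥ (fun i => v (.inl (.inr i))))) (fun i => v (.inr i)) := by
    show (fromBlocks _ _ _ _) *ᵥ _ = _
    rw [fromBlocks_mulVec, fromBlocks_mulVec]
    funext i
    rcases i with (i | i) | i <;> simp [Function.comp_def]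
  have h2 : ∑ i : Fin l, (g.val *ᵥ (fun i => v (.inl (.inl i)))) i *
      ((g⁻¹).valᵀ *ᵥ (fun i => v (.inl (.inr i)))) i =
      ∑ i : Fin l, v (.inl (.inl i)) * v (.inl (.inr i)) := by
    show (g.val *ᵥ (fun i => v (.inl (.inl i)))) ⬝ᵥ
      ((g⁻¹).valᵀ *ᵥ (fun i => v (.inl (.inr i)))) =
      (fun i => v (.inl (.inl i))) ⬝ᵥ (fun i => v (.inl (.inr i)))
    rw [mulVec_transpose, dotProduct_comm, ← dotProduct_mulVec, mulVec_mulVec, ← Units.val_mul, inv_mul_cancel,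
      Units.val_one, one_mulVec, dotProduct_comm]
  rw [h1, quadFormMinus, quadFormMinus]
  simp only [Sum.elim_inl, Sum.elim_inr]
  rw [h2]

/-- `GL_l → O⁻` -/
noncomputable def lev (F : Type*) [Field F] (l : ℕ) (a b : F) : GL (Fin l) F →* isometryGroup F (quadFormMinus l F a b) :=
  (MonoidHom.toHomUnits (levM F l)).codRestrict (isometryGroup F (quadFormMinus l F a b)) (fun g =>
    (mem_isometryGroup_iff _ _).2 fun v => quad_levM a b g v)

/-- `GL₂ → O⁻` -/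
noncomputable def L (F : Type*) [Field F] (j : ℕ) (a b : F) :
    GL (Fin 2) F →* isometryGroup F (quadFormMinus (2 + j) F a b) := (lev F (2 + j) a b).comp (blk F j)

/-- vectors -/
def vec {j : ℕ} (u u' : Fin 2 → F) (w w' : Fin j → F) (z : Fin 2 → F) : (Fin (2 + j) ⊕ Fin (2 + j)) ⊕ Fin 2 → F :=
  Sum.elim (Sum.elim (Sum.elim u w ∘ finSumFinEquiv.symm) (Sum.elim u' w' ∘ finSumFinEquiv.symm)) z

theorem exists_vec {j : ℕ} (v : (Fin (2 + j) ⊕ Fin (2 + j)) ⊕ Fin 2 → F) :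
    ∃ u u' w w' z, v = vec u u' w w' z := by
  refine ⟨fun i => v (.inl (.inl (finSumFinEquiv (.inl i)))), fun i => v (.inl (.inr (finSumFinEquiv (.inl i)))),
    fun i => v (.inl (.inl (finSumFinEquiv (.inr i)))), fun i => v (.inl (.inr (finSumFinEquiv (.inr i)))),
    fun i => v (.inr i), ?_⟩
  funext i
  rcases i with (i | i) | i
  · obtain ⟨i, rfl⟩ := finSumFinEquiv.surjective i
    rcases i with i | i <;> simp [vec]
  · obtain ⟨i, rfl⟩ := finSumFinEquiv.surjective i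
    rcases i with i | i <;> simp [vec]
  · rfl

theorem L_vec {j : ℕ} {a b : F} (y : GL (Fin 2) F) (u u' : Fin 2 → F) (w w' : Fin j → F) (z : Fin 2 → F) :
    (L F j a b y).1.val *ᵥ vec u u' w w' z =
      vec (y.val *ᵥ u) ((y⁻¹).valᵀ *ᵥ u') w w' z := by
  have hT : ((blk F j y)⁻¹).valᵀ *ᵥ (Sum.elim u' w' ∘ finSumFinEquiv.symm) =
      Sum.elim ((y⁻¹).valᵀ *ᵥ u') w' ∘ finSumFinEquiv.symm := by
    rw [← map_inv]
    show (reindex finSumFinEquiv finSumFinEquiv (fromBlocks (y⁻¹).val 0 0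
      (1 : Matrix (Fin j) (Fin j) F)))ᵀ *ᵥ _ = _
    rw [reindex_apply, transpose_submatrix, submatrix_mulVec_equiv]
    congr 1
    rw [Function.comp_assoc, fromBlocks_transpose]
    simp [fromBlocks_mulVec]
  show (fromBlocks (fromBlocks (blk F j y).val 0 0 ((blk F j y)⁻¹).valᵀ) 0 0 1) *ᵥ _ = _
  rw [fromBlocks_mulVec, fromBlocks_mulVec]
  have e1 : (vec u u' w w' z ∘ Sum.inl) ∘ Sum.inl = Sum.elim u w ∘ finSumFinEquiv.symm := rfl
  have e2 : (vec u u' w w' z ∘ Sum.inl) ∘ Sum.inr = Sum.elim u' w' ∘ finSumFinEquiv.symm := rfl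
  have e3 : (vec u u' w w' z ∘ Sum.inr) = z := rfl
  rw [e1, e2, e3, blk_mulVec, hT]
  simp [vec]

end Cfsg.Agent.H679.VanO
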