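import Cfsg.Agent.H679.VanO.Lev
import Cfsg.Agent.H720.PV.Top
import Cfsg.Agent.H477.HC.RowMinus
import Cfsg.Agent.H620.PNorm

/-!
# Vanishing elements of `PΩ⁻_{2l+2}(q)` (helper679, S4555 / S4559)
-/

set_option autoImplicit false

open scoped ComplexConjugate
open Cfsg

namespace Cfsg.Agent.H679.VanO

open Cfsg.Agent.Characters Module Cfsg.Agent.H53.HC Cfsg.Agent.H477.HC Cfsg.Agent.H720.PV

universe u

variable {K : Type u} [Field K] [Finite K]

/-- **The character.** -/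
theorem exists_chi {a b : K} (hab : ∀ z₁ z₂ : K, z₁ ^ 2 + a * z₁ * z₂ + b * z₂ ^ 2 = 0 → z₁ = 0 ∧ z₂ = 0) {l : ℕ}
    (hl : 3 ≤ l) : ∃ χ : isometryGroup K (quadFormMinus l K a b) → ℂ,
      IsIrrCharacter (isometryGroup K (quadFormMinus l K a b)) χ ∧
      (∀ z : Omega K (quadFormMinus l K a b), z ∈ Subgroup.center (Omega K (quadFormMinus l K a b)) → χ z = χ 1) ∧
      ∀ p : ℕ, (p : K) ≠ 0 → ∀ x : Omega K (quadFormMinus l K a b),
        Gd (quadFormMinus l K a b) p (Nat.card K ^ (2 * l - 2)) x → χ x = 0 := by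
  classical
  obtain ⟨r, hr⟩ := CharP.exists K
  have : Fact r.Prime := ⟨(CharP.char_is_prime_or_zero K r).resolve_right (CharP.char_ne_zero_of_finite K r)⟩
  obtain ⟨c, hc, hv⟩ := exists_cus_sq_v K rfl l (by omega) (fun _ => hl) (fun _ => hl) (fun _ => by omega)
  obtain ⟨⟨W₀, hW₀⟩, -⟩ := CForm.minusF_frame (K := K) (p := r) hab l 0
  obtain ⟨χ, hχ, -, hsc, h0⟩ := exists_char_v (CForm.minusF K l a b hab) hW₀ hc hv
  let i : isometryGroup K (quadFormMinus l K a b) ≃* (CForm.minusF K l a b hab).iso :=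
    isoQuad (CForm.minusF K l a b hab) (minus_hB K l a b hab)
  refine ⟨χ ∘ i, Core.isIrr_comp i.toMonoidHom i.surjective hχ, fun z hz => ?_, fun p hp x hx => ?_⟩
  · obtain ⟨a', ha', hz'⟩ := scal_of (cen_minus K (by omega) a b hab z hz)
    have h1 := hsc (i z.1) a' ha' hz'
    show χ (i z.1) = χ (i 1)
    rw [h1, map_one]
  · have hs : (i x.1).1 ^ p = 1 := by
      have h1 : (x : isometryGroup K (quadFormMinus l K a b)) ^ p = 1 := by
        have := pow_orderOf_eq_one x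
        rw [hx.ord] at this
        exact congrArg Subtype.val this
      have h2 : (i x.1) ^ p = 1 := by rw [← map_pow, h1, map_one]
      exact congrArg Subtype.val h2
    refine h0 (i x.1) p hp hs ?_ ?_
    · have h1 := finrank_fix_add_mov (i x.1).1
      have h2 : Module.finrank K ((Fin l ⊕ Fin l) ⊕ Fin 2 → K) = l + l + 2 := by simp
      rw [h2] at h1
      have h3 := hx.dim
      have h4 : Nat.card {v : (Fin l ⊕ Fin l) ⊕ Fin 2 → K // (x : isometryGroup K (quadFormMinus l K a b)).1.val.mulVec v = v} =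
          Nat.card (LinearMap.ker (((i x.1).1 :
            ((Fin l ⊕ Fin l) ⊕ Fin 2 → K) →ₗ[K] ((Fin l ⊕ Fin l) ⊕ Fin 2 → K)) - LinearMap.id)) := by
        refine Nat.card_congr (Equiv.subtypeEquivRight fun v => ?_)
        rw [LinearMap.mem_ker, LinearMap.sub_apply, LinearMap.id_apply, sub_eq_zero]
        rfl
      rw [h4, Module.natCard_eq_pow_finrank (K := K) (V := LinearMap.ker (((i x.1).1 :
        ((Fin l ⊕ Fin l) ⊕ Fin 2 → K) →ₗ[K] ((Fin l ⊕ Fin l) ⊕ Fin 2 → K)) - LinearMap.id))] at h3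
      have h5 := (Nat.pow_le_pow_iff_right (Finite.one_lt_card (α := K))).1 h3
      omega
    · obtain ⟨u, hu, hQ⟩ := hx.sing
      refine exists_moved_of_sing (CForm.minusF K l a b hab) hp hs (fun W hW => ?_) (u := _) ⟨u, rfl⟩ hu ⟨hQ, ?_⟩
      · refine Cfsg.Agent.AutOrth.Main.finrank_le_of_TS_minus l a b hab (W := W) fun w hw => ?_
        rw [show (LieClassical.QuadForms.minusForm l K a b) w = quadFormMinus l K a b w from
          congrFun (LieClassical.QuadForms.coe_minusForm l a b) w]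
        exact hW.1 w hw
      · exact (CForm.minusF K l a b hab).alt _ hQ

/-! ### the elements `y ⊕ y⁻ᵀ ⊕ 1` -/

section elts

open Matrix QuadraticMap

omit [Finite K] in
theorem quad_vec {j : ℕ} (a b : K) (u u' : Fin 2 → K) (w w' : Fin j → K) (z : Fin 2 → K) :
    quadFormMinus (2 + j) K a b (vec u u' w w' z) =
      (∑ i, u i * u' i) + (∑ i, w i * w' i) + (z 0 ^ 2 + a * z 0 * z 1 + b * z 1 ^ 2) := by
  rw [quadFormMinus, ← finSumFinEquiv.sum_comp, Fintype.sum_sum_type]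
  simp [vec]

omit [Finite K] in
theorem vec_add {j : ℕ} (u u' : Fin 2 → K) (w w' : Fin j → K) (z : Fin 2 → K) (x x' : Fin 2 → K) (y y' : Fin j → K)
    (t : Fin 2 → K) : vec u u' w w' z + vec x x' y y' t = vec (u + x) (u' + x') (w + y) (w' + y') (z + t) := by
  funext i
  rcases i with (i | i) | i
  · obtain ⟨i, rfl⟩ := finSumFinEquiv.surjective i
    rcases i with i | i <;> simp [vec]
  · obtain ⟨i, rfl⟩ := finSumFinEquiv.surjective i
    rcases i with i | i <;> simp [vec]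
  · rfl

omit [Finite K] in
theorem vec_sub {j : ℕ} (u u' : Fin 2 → K) (w w' : Fin j → K) (z : Fin 2 → K) (x x' : Fin 2 → K) (y y' : Fin j → K)
    (t : Fin 2 → K) : vec u u' w w' z - vec x x' y y' t = vec (u - x) (u' - x') (w - y) (w' - y') (z - t) := by
  funext i
  rcases i with (i | i) | i
  · obtain ⟨i, rfl⟩ := finSumFinEquiv.surjective i
    rcases i with i | i <;> simp [vec]
  · obtain ⟨i, rfl⟩ := finSumFinEquiv.surjective i
    rcases i with i | i <;> simp [vec]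
  · rfl

omit [Finite K] [Field K] in
theorem vec_inj {j : ℕ} {u u' : Fin 2 → K} {w w' : Fin j → K} {z : Fin 2 → K} {x x' : Fin 2 → K} {y y' : Fin j → K}
    {t : Fin 2 → K} (h : vec u u' w w' z = vec x x' y y' t) : u = x ∧ u' = x' ∧ w = y ∧ w' = y' ∧ z = t := by
  refine ⟨?_, ?_, ?_, ?_, ?_⟩
  · funext i
    simpa [vec] using congrFun h (.inl (.inl (finSumFinEquiv (.inl i))))
  · funext i
    simpa [vec] using congrFun h (.inl (.inr (finSumFinEquiv (.inl i))))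
  · funext i
    simpa [vec] using congrFun h (.inl (.inl (finSumFinEquiv (.inr i))))
  · funext i
    simpa [vec] using congrFun h (.inl (.inr (finSumFinEquiv (.inr i))))
  · funext i
    exact congrFun h (.inr i)

/-- the fixed vectors -/
theorem card_fix_ge {j : ℕ} {M : Matrix ((Fin (2 + j) ⊕ Fin (2 + j)) ⊕ Fin 2) ((Fin (2 + j) ⊕ Fin (2 + j)) ⊕ Fin 2) K}
    (h : ∀ (w w' : Fin j → K) (z : Fin 2 → K), M *ᵥ vec 0 0 w w' z = vec 0 0 w w' z) :
    Nat.card K ^ (2 * (2 + j) - 2) ≤ Nat.card {v : (Fin (2 + j) ⊕ Fin (2 + j)) ⊕ Fin 2 → K // M *ᵥ v = v} := by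
  have h1 : Nat.card ((Fin j → K) × (Fin j → K) × (Fin 2 → K)) = Nat.card K ^ (2 * (2 + j) - 2) := by
    rw [Nat.card_prod, Nat.card_prod, Nat.card_fun, Nat.card_fun, Nat.card_fin, Nat.card_fin, ← pow_add, ← pow_add]
    congr 1
    omega
  rw [← h1]
  refine Nat.card_le_card_of_injective (fun x => ⟨vec 0 0 x.1 x.2.1 x.2.2, h _ _ _⟩) ?_
  rintro ⟨w, w', z⟩ ⟨y, y', t⟩ hxy
  obtain ⟨-, -, h3, h4, h5⟩ := vec_inj (congrArg Subtype.val hxy)
  simp only at h3 h4 h5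
  rw [h3, h4, h5]

theorem gd_L {j : ℕ} (hj : 1 ≤ j) {a b : K} {p : ℕ} (hp : p.Prime) {y : GL (Fin 2) K} (hy : orderOf y = p)
    (hm : L K j a b y ∈ Omega K (quadFormMinus (2 + j) K a b)) :
    Gd (quadFormMinus (2 + j) K a b) p (Nat.card K ^ (2 * (2 + j) - 2)) ⟨L K j a b y, hm⟩ := by
  have : Fact p.Prime := ⟨hp⟩
  obtain ⟨u₀, hu₀⟩ : ∃ u : Fin 2 → K, y.val *ᵥ u ≠ u := by
    by_contra hcon
    push Not at hcon
    have h1 : y = 1 := by
      apply Units.ext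
      rw [← Matrix.mulVec_injective.eq_iff]
      funext u
      rw [hcon, Units.val_one, one_mulVec]
    rw [h1, orderOf_one] at hy
    exact hp.one_lt.ne hy
  obtain ⟨i₀⟩ : Nonempty (Fin j) := ⟨⟨0, hj⟩⟩
  refine ⟨?_, ?_, ?_, ?_⟩
  · rw [Subgroup.orderOf_mk]
    refine orderOf_eq_prime ?_ fun h => ?_
    · rw [← map_pow, ← hy, pow_orderOf_eq_one, map_one]
    · have h1 := L_vec (a := a) (b := b) y u₀ 0 (0 : Fin j → K) 0 0
      rw [h] at h1
      have h2 : vec u₀ 0 (0 : Fin j → K) 0 0 = vec (y.val *ᵥ u₀) ((y⁻¹).valᵀ *ᵥ 0) 0 0 0 := by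
        rw [← h1]
        exact (one_mulVec _).symm
      exact hu₀ (vec_inj h2).1.symm
  · refine ⟨vec 0 0 (Pi.single i₀ 1) 0 0, vec 0 0 0 (Pi.single i₀ 1) 0, ?_, ?_, ?_, ?_, ?_⟩
    · show (L K j a b y).1.val *ᵥ _ = _
      rw [L_vec, mulVec_zero, mulVec_zero]
    · show (L K j a b y).1.val *ᵥ _ = _
      rw [L_vec, mulVec_zero, mulVec_zero]
    · rw [quad_vec]; simp
    · rw [quad_vec]; simp
    · rw [polar, vec_add, quad_vec, quad_vec, quad_vec]; simp [Pi.single_apply]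
  · refine ⟨vec u₀ 0 0 0 0, ?_, ?_⟩
    · show (L K j a b y).1.val *ᵥ _ - _ ≠ 0
      rw [L_vec, vec_sub]
      intro h
      have h1 : vec (0 : Fin 2 → K) 0 (0 : Fin j → K) 0 0 = 0 := by
        have h2 := vec_sub (0 : Fin 2 → K) 0 (0 : Fin j → K) 0 0 0 0 0 0 0
        rw [sub_self] at h2
        rw [h2]
        simp
      rw [← h1] at h
      exact hu₀ (sub_eq_zero.1 (vec_inj h).1)
    · show quadFormMinus _ _ _ _ ((L K j a b y).1.val *ᵥ _ - _) = 0
      rw [L_vec, vec_sub, quad_vec]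
      simp
  · refine card_fix_ge fun w w' z => ?_
    show (L K j a b y).1.val *ᵥ _ = _
    rw [L_vec, mulVec_zero, mulVec_zero]

/-- **vanishing** -/
theorem vz_minus {a b : K} (hab : ∀ z₁ z₂ : K, z₁ ^ 2 + a * z₁ * z₂ + b * z₂ ^ 2 = 0 → z₁ = 0 ∧ z₂ = 0) {l : ℕ}
    (hl : 3 ≤ l) {p : ℕ} (hpK : (p : K) ≠ 0) {x : Omega K (quadFormMinus l K a b)}
    (hx : Gd (quadFormMinus l K a b) p (Nat.card K ^ (2 * l - 2)) x) :
    H713.VZ (POmega K (quadFormMinus l K a b)) (QuotientGroup.mk x) := by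
  obtain ⟨χ, hχ, hz, h0⟩ := exists_chi hab hl
  exact vz_of (Cfsg.Agent.AutOrth.Main.good_minus (by omega) hab)
    (Cfsg.Agent.LieClassical.OmegaReindex.nondegenerate_of_left _ (by
      rw [← Cfsg.Agent.AutOrth.Main.minusForm_eq]
      exact Cfsg.Agent.LieClassical.OrthForms.nondeg_minusForm l K a b hab)) (by simp; omega)
    (Cfsg.Agent.LieClassical.QuadForms.coe_minusForm l a b) (Cfsg.Agent.AutOrth.Main.all_minus hl hab) hχ hz
    (h0 p hpK) hx

theorem mem_omega {a b : K} (hab : ∀ z₁ z₂ : K, z₁ ^ 2 + a * z₁ * z₂ + b * z₂ ^ 2 = 0 → z₁ = 0 ∧ z₂ = 0) {l : ℕ}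
    (hl : 3 ≤ l) {p : ℕ} (hp : p.Prime) (hp2 : p ≠ 2) {g : isometryGroup K (quadFormMinus l K a b)}
    (hg : g ^ p = 1) : g ∈ Omega K (quadFormMinus l K a b) := by
  have h1 : g ^ 8 ∈ Omega K (quadFormMinus l K a b) := by
    obtain ⟨c, hc⟩ := minus_idx K a b hab hl
    rw [hc, pow_mul]
    exact Subgroup.pow_mem _ (Subgroup.pow_index_mem _ g) c
  have hcop : Nat.Coprime 8 p := by
    have h2 : Nat.Coprime 2 p := (Nat.coprime_primes Nat.prime_two hp).2 hp2.symm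
    exact Nat.Coprime.pow_left 3 h2
  obtain ⟨m, hm1, hm2⟩ := Nat.chineseRemainder hcop 0 1
  obtain ⟨t, ht⟩ := (Nat.modEq_zero_iff_dvd).1 hm1
  have h3 : g ^ m = g := by
    conv_rhs => rw [← pow_one g]
    rw [pow_eq_pow_iff_modEq]
    exact hm2.of_dvd (orderOf_dvd_of_pow_eq_one hg)
  rw [← h3, ht, pow_mul]
  exact Subgroup.pow_mem _ h1 t

/-- elements of odd order -/
theorem vordP_of_gd {a b : K} (hab : ∀ z₁ z₂ : K, z₁ ^ 2 + a * z₁ * z₂ + b * z₂ ^ 2 = 0 → z₁ = 0 ∧ z₂ = 0) {l : ℕ}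
    (hl : 3 ≤ l) {p : ℕ} (hp : p.Prime) (hp2 : p ≠ 2) (hpK : (p : K) ≠ 0) {x : Omega K (quadFormMinus l K a b)}
    (hx : Gd (quadFormMinus l K a b) p (Nat.card K ^ (2 * l - 2)) x) :
    H620.PNorm.VOrdP p (POmega K (quadFormMinus l K a b)) := by
  have : Fact p.Prime := ⟨hp⟩
  refine ⟨QuotientGroup.mk x, orderOf_eq_prime ?_ fun h => ?_, vz_minus hab hl hpK hx⟩
  · have h1 := pow_orderOf_eq_one x
    rw [hx.ord] at h1
    rw [← QuotientGroup.mk_pow, h1]
    rfl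
  · have h1 : x ∈ Subgroup.center (Omega K (quadFormMinus l K a b)) := (QuotientGroup.eq_one_iff x).1 h
    have h2 : x ^ 2 = 1 := by
      apply Subtype.ext
      apply Subtype.ext
      apply Units.ext
      show (omMat x) ^ 2 = 1
      rcases cen_minus K (by omega) a b hab x h1 with h | h
      · rw [h, one_pow]
      · rw [h]; simp
    have h3 := orderOf_dvd_of_pow_eq_one h2
    rw [hx.ord, Nat.prime_dvd_prime_iff_eq hp Nat.prime_two] at h3
    exact hp2 h3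

/-- **`p` odd, `p ∣ q² - 1`** -/
theorem vordP_two {a b : K} (hab : ∀ z₁ z₂ : K, z₁ ^ 2 + a * z₁ * z₂ + b * z₂ ^ 2 = 0 → z₁ = 0 ∧ z₂ = 0) {l : ℕ}
    (hl : 3 ≤ l) {p : ℕ} (hp : p.Prime) (hp2 : p ≠ 2) (hd : p ∣ Nat.card K ^ 2 - 1) :
    H620.PNorm.VOrdP p (POmega K (quadFormMinus l K a b)) := by
  have : Fact p.Prime := ⟨hp⟩
  let _ := Fintype.ofFinite K
  have hpK : (p : K) ≠ 0 := by
    intro h0
    obtain ⟨r, hr⟩ := CharP.exists K
    have hr' : r.Prime := (CharP.char_is_prime_or_zero K r).resolve_right (CharP.char_ne_zero_of_finite K r)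
    have h1 : r ∣ p := (CharP.cast_eq_zero_iff K r p).1 h0
    rw [Nat.prime_dvd_prime_iff_eq hr' hp] at h1
    subst h1
    have h2 : r ∣ Nat.card K := by
      rw [← CharP.cast_eq_zero_iff K r, Nat.card_eq_fintype_card, FiniteField.cast_card_eq_zero]
    have h3 : r ∣ 1 := by
      have h4 := (Nat.dvd_sub_iff_right (Nat.one_le_pow _ _ Nat.card_pos) (dvd_pow h2 two_ne_zero)).1 hd
      exact h4
    exact hr'.one_lt.ne' (Nat.dvd_one.1 h3)
  have hGL : p ∣ Nat.card (GL (Fin 2) K) := by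
    rw [Matrix.card_GL_field]
    refine hd.trans ?_
    rw [Fin.prod_univ_two]
    simp only [Fin.val_zero, pow_zero, Nat.card_eq_fintype_card]
    exact dvd_mul_right _ _
  obtain ⟨y, hy⟩ := exists_prime_orderOf_dvd_card' p hGL
  obtain ⟨j, rfl⟩ : ∃ j, l = 2 + j := ⟨l - 2, by omega⟩
  have hmem : L K j a b y ∈ Omega K (quadFormMinus (2 + j) K a b) :=
    mem_omega hab hl hp hp2 (by rw [← map_pow, ← hy, pow_orderOf_eq_one, map_one])
  exact vordP_of_gd hab hl hp hp2 hpK (gd_L (by omega) hp hy hmem)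

/-- **`p = 2`, `q` odd** -/
theorem vPow_two {a b : K} (hab : ∀ z₁ z₂ : K, z₁ ^ 2 + a * z₁ * z₂ + b * z₂ ^ 2 = 0 → z₁ = 0 ∧ z₂ = 0) {l : ℕ}
    (hl : 3 ≤ l) (h2 : (2 : K) ≠ 0) : H620.PNorm.VPow 2 (POmega K (quadFormMinus l K a b)) := by
  have : Fact (Nat.Prime 2) := ⟨Nat.prime_two⟩
  have h1 : (-1 : K) ≠ 1 := by
    intro h
    apply h2
    linear_combination (-1 : K) * h
  -- `-1` is a commutator
  let s : GL (Fin 2) K := ⟨!![1, 0; 0, -1], !![1, 0; 0, -1], by ext i j; fin_cases i <;> fin_cases j <;> simp,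
    by ext i j; fin_cases i <;> fin_cases j <;> simp⟩
  let w : GL (Fin 2) K := ⟨!![0, 1; 1, 0], !![0, 1; 1, 0], by ext i j; fin_cases i <;> fin_cases j <;> simp,
    by ext i j; fin_cases i <;> fin_cases j <;> simp⟩
  have hsw : s * w * s⁻¹ * w⁻¹ = -1 := by
    apply Units.ext
    show !![1, 0; 0, -1] * !![0, 1; 1, 0] * !![1, 0; 0, -1] * !![0, 1; 1, 0] = (-1 : Matrix (Fin 2) (Fin 2) K)
    ext i j
    fin_cases i <;> fin_cases j <;> simp
  have hy : orderOf (-1 : GL (Fin 2) K) = 2 := by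
    refine orderOf_eq_prime (by simp) fun h => h1 ?_
    have h3 : (-1 : Matrix (Fin 2) (Fin 2) K) = 1 := congrArg Units.val h
    have h4 := congrFun (congrFun h3 0) 0
    simpa using h4
  obtain ⟨j, rfl⟩ : ∃ j, l = 2 + j := ⟨l - 2, by omega⟩
  have hmem : L K j a b (-1) ∈ Omega K (quadFormMinus (2 + j) K a b) := by
    rw [← hsw, map_mul, map_mul, map_mul, map_inv, map_inv]
    exact Subgroup.commutator_mem_commutator (Subgroup.mem_top _) (Subgroup.mem_top _)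
  have hx := gd_L (a := a) (b := b) (by omega) Nat.prime_two hy hmem
  refine ⟨_, ?_, vz_minus hab hl (by exact_mod_cast h2) hx⟩
  have h3 : (QuotientGroup.mk (⟨L K j a b (-1), hmem⟩ : Omega K (quadFormMinus (2 + j) K a b)) :
      POmega K (quadFormMinus (2 + j) K a b)) ^ 2 ^ 1 = 1 := by
    have h1 := pow_orderOf_eq_one (⟨L K j a b (-1), hmem⟩ : Omega K (quadFormMinus (2 + j) K a b))
    rw [hx.ord] at h1
    rw [← QuotientGroup.mk_pow, pow_one, h1]
    rfl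
  obtain ⟨i, -, hi⟩ := (Nat.dvd_prime_pow Nat.prime_two).1 (orderOf_dvd_of_pow_eq_one h3)
  exact ⟨i, hi⟩

end elts

end Cfsg.Agent.H679.VanO
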