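import Cfsg.Agent.H679.VanO.Minus

/-!
# Vanishing elements of `PΩ⁻_{2l+2}(q)`, `p ∣ q² + 1` (helper679, S4555 / S4559)

`x ∈ O⁻_4(q)` of order `p`, extended by the identity.
-/

set_option autoImplicit false

open Cfsg

namespace Cfsg.Agent.H679.VanO

open Module Matrix QuadraticMap Cfsg.Agent.H477.HC

universe u

variable {K : Type u} [Field K]

theorem card_fix_modEq {α : Type*} [Finite α] {p : ℕ} [hp : Fact p.Prime] (σ : Equiv.Perm α) (hσ : σ ^ p = 1) :
    Nat.card α ≡ Nat.card {v : α // σ v = v} [MOD p] := by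
  have hG : IsPGroup p (Subgroup.zpowers σ) := by
    refine IsPGroup.of_card (n := (orderOf σ).factorization p) ?_
    rw [Nat.card_zpowers]
    obtain ⟨i, -, hi⟩ := (Nat.dvd_prime_pow hp.out).1 ((orderOf_dvd_of_pow_eq_one hσ).trans (dvd_of_eq (pow_one p).symm))
    rw [hi, hp.out.factorization_pow, Finsupp.single_eq_same]
  have h1 := hG.card_modEq_card_fixedPoints α
  have h2 : Nat.card (MulAction.fixedPoints (Subgroup.zpowers σ) α) = Nat.card {v : α // σ v = v} := ?_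
  · rw [h2] at h1
    exact h1
  refine Nat.card_congr (Equiv.subtypeEquivRight fun v => ?_)
  rw [MulAction.mem_fixedPoints]
  constructor
  · intro h
    exact h ⟨σ, Subgroup.mem_zpowers σ⟩
  · rintro h ⟨g, hg⟩
    obtain ⟨i, rfl⟩ := Subgroup.mem_zpowers_iff.1 hg
    show (σ ^ i) v = v
    exact Equiv.Perm.zpow_apply_eq_self_of_apply_eq_self h i

/-- a matrix of order `p`, `p ∣ q² + 1`, of degree 4 has no fixed vectors -/
theorem exists_sub_eq [Finite K] {ι : Type} [Fintype ι] [DecidableEq ι] (h4 : Fintype.card ι = 4) {p : ℕ}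
    (hp : p.Prime) (hp2 : p ≠ 2) (hd : p ∣ Nat.card K ^ 2 + 1) {M : Matrix ι ι K} (hM : M ^ p = 1) (hM1 : M ≠ 1)
    (w : ι → K) : ∃ u, M *ᵥ u - u = w := by
  have : Fact p.Prime := ⟨hp⟩
  let φ : (ι → K) →ₗ[K] (ι → K) := Matrix.toLin' M - LinearMap.id
  have hφ : ∀ u, φ u = M *ᵥ u - u := fun u => rfl
  have hmul : M * M ^ (p - 1) = 1 := by
    rw [← pow_succ', Nat.sub_add_cancel hp.one_lt.le, hM]
  have hmul' : M ^ (p - 1) * M = 1 := by
    rw [← pow_succ, Nat.sub_add_cancel hp.one_lt.le, hM]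
  let σ : Equiv.Perm (ι → K) :=
    { toFun := fun v => M *ᵥ v
      invFun := fun v => M ^ (p - 1) *ᵥ v
      left_inv := fun v => by simp only [mulVec_mulVec]; rw [hmul', one_mulVec]
      right_inv := fun v => by simp only [mulVec_mulVec]; rw [hmul, one_mulVec] }
  have hσi : ∀ (i : ℕ) v, (σ ^ i) v = M ^ i *ᵥ v := by
    intro i
    induction i with
    | zero => intro v; simp
    | succ i ih =>
      intro v
      rw [pow_succ', pow_succ', ← mulVec_mulVec, ← ih]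
      rfl
  have hσ : σ ^ p = 1 := by
    ext1 v
    rw [hσi, hM, one_mulVec]
    rfl
  have h1 := card_fix_modEq σ hσ
  have h2 : Nat.card {v : ι → K // σ v = v} = Nat.card (LinearMap.ker φ) := by
    refine Nat.card_congr (Equiv.subtypeEquivRight fun v => ?_)
    rw [LinearMap.mem_ker, hφ, sub_eq_zero]
    rfl
  have h3 : Nat.card (ι → K) = Nat.card K ^ 4 := by
    rw [Nat.card_fun, Nat.card_eq_fintype_card (α := ι), h4]
  rw [h2, h3, Module.natCard_eq_pow_finrank (K := K) (V := LinearMap.ker φ)] at h1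
  obtain ⟨f, hf⟩ : ∃ f, f = finrank K (LinearMap.ker φ) := ⟨_, rfl⟩
  rw [← hf] at h1
  have hf4 : f ≤ 4 := by
    rw [hf, ← h4, ← Module.finrank_fintype_fun_eq_card K]
    exact Submodule.finrank_le _
  -- `q` has order 4 modulo `p`
  have hq2 : ((Nat.card K : ℕ) : ZMod p) ^ 2 = -1 := by
    have h5 := (ZMod.natCast_eq_zero_iff _ _).2 hd
    push_cast at h5
    exact eq_neg_of_add_eq_zero_left h5
  have h5 : ((Nat.card K : ℕ) : ZMod p) ^ 4 = ((Nat.card K : ℕ) : ZMod p) ^ f := by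
    have := (ZMod.natCast_eq_natCast_iff _ _ _).2 h1
    push_cast at this
    exact this
  have h6 : ((Nat.card K : ℕ) : ZMod p) ^ 4 = 1 := by
    rw [show 4 = 2 * 2 from rfl, pow_mul, hq2]; ring
  have h7 : (2 : ZMod p) ≠ 0 := by
    intro h
    have h8 : ((2 : ℕ) : ZMod p) = 0 := by exact_mod_cast h
    rw [ZMod.natCast_eq_zero_iff] at h8
    exact hp2 ((Nat.prime_dvd_prime_iff_eq hp Nat.prime_two).1 h8)
  have h8 : (1 : ZMod p) ≠ -1 := by
    intro h
    apply h7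
    linear_combination h
  have hfz : f = 0 := by
    rw [h6] at h5
    interval_cases f
    · rfl
    · exfalso
      rw [pow_one] at h5
      rw [← h5] at hq2
      exact h8 (by rw [← hq2]; ring)
    · exact absurd (h5.trans hq2) h8
    · exfalso
      have h9 : ((Nat.card K : ℕ) : ZMod p) = 1 := by
        calc ((Nat.card K : ℕ) : ZMod p) = 1 * ((Nat.card K : ℕ) : ZMod p) := (one_mul _).symm
          _ = ((Nat.card K : ℕ) : ZMod p) ^ 3 * ((Nat.card K : ℕ) : ZMod p) := by rw [← h5]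
          _ = ((Nat.card K : ℕ) : ZMod p) ^ 4 := by ring
          _ = 1 := h6
      rw [h9] at hq2
      exact h8 (by rw [← hq2]; ring)
    · exfalso
      apply hM1
      have h9 : LinearMap.ker φ = ⊤ := by
        apply Submodule.eq_top_of_finrank_eq
        rw [← hf, Module.finrank_fintype_fun_eq_card, h4]
      rw [← Matrix.mulVec_injective.eq_iff]
      funext v
      have h10 : v ∈ LinearMap.ker φ := by rw [h9]; exact Submodule.mem_top
      rw [LinearMap.mem_ker, hφ, sub_eq_zero] at h10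
      rw [h10, one_mulVec]
  have hker : LinearMap.ker φ = ⊥ := by
    rw [hfz] at hf
    exact Submodule.finrank_eq_zero.1 hf.symm
  obtain ⟨u, hu⟩ := (LinearMap.injective_iff_surjective.1 (LinearMap.ker_eq_bot.1 hker)) w
  exact ⟨u, hu⟩

/-! ### the embedding -/

/-- the indices -/
def ixF (j : ℕ) : ((Fin 1 ⊕ Fin 1) ⊕ Fin 2) ⊕ (Fin j ⊕ Fin j) → (Fin (1 + j) ⊕ Fin (1 + j)) ⊕ Fin 2
  | .inl (.inl (.inl i)) => .inl (.inl (finSumFinEquiv (.inl i)))
  | .inl (.inl (.inr i)) => .inl (.inr (finSumFinEquiv (.inl i)))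
  | .inl (.inr i) => .inr i
  | .inr (.inl i) => .inl (.inl (finSumFinEquiv (.inr i)))
  | .inr (.inr i) => .inl (.inr (finSumFinEquiv (.inr i)))

theorem ixF_bij (j : ℕ) : Function.Bijective (ixF j) := by
  rw [Fintype.bijective_iff_injective_and_card]
  constructor
  · rintro (((i | i) | i) | (i | i)) (((k | k) | k) | (k | k)) h <;>
      simp only [ixF, Sum.inl.injEq, Sum.inr.injEq, reduceCtorEq, EmbeddingLike.apply_eq_iff_eq] at h <;>
      first
      | exact absurd h (by simp)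
      | (subst h; rfl)
  · simp
    omega

noncomputable def ix (j : ℕ) : ((Fin 1 ⊕ Fin 1) ⊕ Fin 2) ⊕ (Fin j ⊕ Fin j) ≃ (Fin (1 + j) ⊕ Fin (1 + j)) ⊕ Fin 2 :=
  Equiv.ofBijective (ixF j) (ixF_bij j)

theorem quad_ix {j : ℕ} (a b : K) (v : (Fin (1 + j) ⊕ Fin (1 + j)) ⊕ Fin 2 → K) :
    quadFormMinus (1 + j) K a b v = quadFormMinus 1 K a b (fun i => v (ix j (.inl i))) +
      ∑ i : Fin j, v (ix j (.inr (.inl i))) * v (ix j (.inr (.inr i))) := by
  rw [quadFormMinus, quadFormMinus, ← finSumFinEquiv.sum_comp, Fintype.sum_sum_type]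
  have e : ∀ i, ix j i = ixF j i := fun i => rfl
  simp only [e, ixF]
  ring

/-- `O⁻_4 → O⁻_{2l+2}` as matrices -/
noncomputable def emM (K : Type u) [Field K] (j : ℕ) : Matrix ((Fin 1 ⊕ Fin 1) ⊕ Fin 2) ((Fin 1 ⊕ Fin 1) ⊕ Fin 2) K →*
    Matrix ((Fin (1 + j) ⊕ Fin (1 + j)) ⊕ Fin 2) ((Fin (1 + j) ⊕ Fin (1 + j)) ⊕ Fin 2) K where
  toFun M := reindex (ix j) (ix j) (fromBlocks M 0 0 1)
  map_one' := by rw [fromBlocks_one]; simp
  map_mul' y z := by
    rw [reindex_apply, reindex_apply, reindex_apply, submatrix_mul_equiv, fromBlocks_multiply]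
    simp

theorem emM_mulVec {j : ℕ} (M : Matrix ((Fin 1 ⊕ Fin 1) ⊕ Fin 2) ((Fin 1 ⊕ Fin 1) ⊕ Fin 2) K)
    (u : (Fin 1 ⊕ Fin 1) ⊕ Fin 2 → K) (w : Fin j ⊕ Fin j → K) :
    emM K j M *ᵥ (Sum.elim u w ∘ (ix j).symm) = Sum.elim (M *ᵥ u) w ∘ (ix j).symm := by
  show (reindex (ix j) (ix j) (fromBlocks M 0 0 1)) *ᵥ _ = _
  rw [reindex_apply, submatrix_mulVec_equiv]
  congr 1
  rw [Function.comp_assoc]
  simp [fromBlocks_mulVec]

omit [Field K] in
theorem exists_join {j : ℕ} (v : (Fin (1 + j) ⊕ Fin (1 + j)) ⊕ Fin 2 → K) :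
    v = Sum.elim (fun i => v (ix j (.inl i))) (fun i => v (ix j (.inr i))) ∘ (ix j).symm := by
  funext i
  obtain ⟨i, rfl⟩ := (ix j).surjective i
  rcases i with i | i <;> simp

theorem quad_emM {j : ℕ} (a b : K) {M : Matrix ((Fin 1 ⊕ Fin 1) ⊕ Fin 2) ((Fin 1 ⊕ Fin 1) ⊕ Fin 2) K}
    (hM : ∀ v, quadFormMinus 1 K a b (M *ᵥ v) = quadFormMinus 1 K a b v)
    (v : (Fin (1 + j) ⊕ Fin (1 + j)) ⊕ Fin 2 → K) :
    quadFormMinus (1 + j) K a b (emM K j M *ᵥ v) = quadFormMinus (1 + j) K a b v := by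
  rw [exists_join v, emM_mulVec, quad_ix, quad_ix]
  simp only [Function.comp_apply, Equiv.symm_apply_apply, Sum.elim_inl, Sum.elim_inr]
  rw [hM]

/-- `O⁻_4 → O⁻_{2l+2}` -/
noncomputable def em (K : Type u) [Field K] (j : ℕ) (a b : K) :
    isometryGroup K (quadFormMinus 1 K a b) →* isometryGroup K (quadFormMinus (1 + j) K a b) :=
  ((Units.map (emM K j)).comp (isometryGroup K (quadFormMinus 1 K a b)).subtype).codRestrict
    (isometryGroup K (quadFormMinus (1 + j) K a b)) (fun g =>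
      (Cfsg.Agent.ClassicalGeometry.Reflection.mem_isometryGroup_iff _ _).2 fun v => quad_emM a b
        ((Cfsg.Agent.ClassicalGeometry.Reflection.mem_isometryGroup_iff _ _).1 g.2) v)

/-- the joined vector -/
noncomputable def jn {j : ℕ} (u : (Fin 1 ⊕ Fin 1) ⊕ Fin 2 → K) (w : Fin j ⊕ Fin j → K) : (Fin (1 + j) ⊕ Fin (1 + j)) ⊕ Fin 2 → K :=
  Sum.elim u w ∘ (ix j).symm

theorem em_jn {j : ℕ} {a b : K} (x : isometryGroup K (quadFormMinus 1 K a b))
    (u : (Fin 1 ⊕ Fin 1) ⊕ Fin 2 → K) (w : Fin j ⊕ Fin j → K) :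
    (em K j a b x).1.val *ᵥ jn u w = jn (x.1.val *ᵥ u) w := emM_mulVec x.1.val u w

theorem quad_jn {j : ℕ} (a b : K) (u : (Fin 1 ⊕ Fin 1) ⊕ Fin 2 → K) (w : Fin j ⊕ Fin j → K) :
    quadFormMinus (1 + j) K a b (jn u w) = quadFormMinus 1 K a b u + ∑ i : Fin j, w (.inl i) * w (.inr i) := by
  rw [quad_ix]
  simp [jn]

theorem jn_add {j : ℕ} (u u' : (Fin 1 ⊕ Fin 1) ⊕ Fin 2 → K) (w w' : Fin j ⊕ Fin j → K) :
    jn u w + jn u' w' = jn (u + u') (w + w') := by
  funext i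
  obtain ⟨i, rfl⟩ := (ix j).surjective i
  rcases i with i | i <;> simp [jn]

theorem jn_sub {j : ℕ} (u u' : (Fin 1 ⊕ Fin 1) ⊕ Fin 2 → K) (w w' : Fin j ⊕ Fin j → K) :
    jn u w - jn u' w' = jn (u - u') (w - w') := by
  funext i
  obtain ⟨i, rfl⟩ := (ix j).surjective i
  rcases i with i | i <;> simp [jn]

omit [Field K] in
theorem jn_inj {j : ℕ} {u u' : (Fin 1 ⊕ Fin 1) ⊕ Fin 2 → K} {w w' : Fin j ⊕ Fin j → K} (h : jn u w = jn u' w') :
    u = u' ∧ w = w' := by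
  constructor
  · funext i
    simpa [jn] using congrFun h (ix j (.inl i))
  · funext i
    simpa [jn] using congrFun h (ix j (.inr i))

theorem quad_zero_one (a b : K) : quadFormMinus 1 K a b 0 = 0 := by
  simp [quadFormMinus]

/-- **elements of order `p ∣ q² + 1`** -/
theorem gd_em [Finite K] {a b : K} (hab : ∀ z₁ z₂ : K, z₁ ^ 2 + a * z₁ * z₂ + b * z₂ ^ 2 = 0 → z₁ = 0 ∧ z₂ = 0) {j : ℕ}
    (hj : 2 ≤ j) {p : ℕ} (hp : p.Prime) (hp2 : p ≠ 2) (hd : p ∣ Nat.card K ^ 2 + 1) :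
    ∃ x, Gd (quadFormMinus (1 + j) K a b) p (Nat.card K ^ (2 * (1 + j) - 2)) x := by
  have : Fact p.Prime := ⟨hp⟩
  have hdc : p ∣ Nat.card (isometryGroup K (quadFormMinus 1 K a b)) := by
    let i : isometryGroup K (quadFormMinus 1 K a b) ≃* (CForm.minusF K 1 a b hab).iso :=
      isoQuad (CForm.minusF K 1 a b hab) (minus_hB K 1 a b hab)
    rw [Nat.card_congr i.toEquiv, card_minusF]
    exact hd.trans (Dvd.dvd.mul_right (Dvd.dvd.mul_left (by norm_num) _) _)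
  obtain ⟨x0, hx0⟩ := exists_prime_orderOf_dvd_card' p hdc
  have hx1 : x0 ≠ 1 := by
    rintro rfl
    rw [orderOf_one] at hx0
    exact hp.one_lt.ne hx0
  have hM1 : x0.1.val ≠ 1 := fun h => hx1 (Subtype.ext (Units.ext h))
  have hMp : x0.1.val ^ p = 1 := by
    have h1 := pow_orderOf_eq_one x0
    rw [hx0] at h1
    exact congrArg (fun y : isometryGroup K (quadFormMinus 1 K a b) => y.1.val) h1
  have hs : ∀ w, ∃ u, x0.1.val *ᵥ u - u = w := exists_sub_eq (by simp) hp hp2 hd hMp hM1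
  have hxp : em K j a b x0 ^ p = 1 := by
    rw [← map_pow, ← hx0, pow_orderOf_eq_one, map_one]
  obtain ⟨e1, he1⟩ : ∃ e1 : (Fin 1 ⊕ Fin 1) ⊕ Fin 2 → K, e1 = Pi.single (.inl (.inl 0)) 1 := ⟨_, rfl⟩
  obtain ⟨u0, hu0⟩ := hs e1
  have he0 : e1 ≠ 0 := by
    intro h
    have := congrFun h (.inl (.inl 0))
    rw [he1] at this
    simp at this
  have hQe : quadFormMinus 1 K a b e1 = 0 := by
    rw [he1]
    simp [quadFormMinus]
  have hmem : em K j a b x0 ∈ Omega K (quadFormMinus (1 + j) K a b) :=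
    mem_omega hab (by omega) hp hp2 hxp
  obtain ⟨i₀⟩ : Nonempty (Fin j) := ⟨⟨0, by omega⟩⟩
  refine ⟨⟨em K j a b x0, hmem⟩, ?_, ?_, ?_, ?_⟩
  · rw [Subgroup.orderOf_mk]
    refine orderOf_eq_prime hxp fun h => ?_
    have h1 := em_jn (j := j) x0 u0 0
    rw [h] at h1
    have h2 : jn u0 0 = jn (x0.1.val *ᵥ u0) (0 : Fin j ⊕ Fin j → K) := by
      rw [← h1]
      exact (one_mulVec _).symm
    apply he0
    rw [← hu0, ← (jn_inj h2).1, sub_self]
  · refine ⟨jn 0 (Pi.single (.inl i₀) 1), jn 0 (Pi.single (.inr i₀) 1), ?_, ?_, ?_, ?_, ?_⟩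
    · show (em K j a b x0).1.val *ᵥ _ = _
      rw [em_jn, mulVec_zero]
    · show (em K j a b x0).1.val *ᵥ _ = _
      rw [em_jn, mulVec_zero]
    · rw [quad_jn, quad_zero_one]; simp
    · rw [quad_jn, quad_zero_one]; simp
    · rw [polar, jn_add, quad_jn, quad_jn, quad_jn, add_zero, quad_zero_one]; simp [Pi.single_apply]
  · refine ⟨jn u0 0, ?_, ?_⟩
    · show (em K j a b x0).1.val *ᵥ _ - _ ≠ 0
      rw [em_jn, jn_sub]
      intro h
      have h1 : jn (0 : (Fin 1 ⊕ Fin 1) ⊕ Fin 2 → K) (0 : Fin j ⊕ Fin j → K) = 0 := by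
        have h2 := jn_sub (0 : (Fin 1 ⊕ Fin 1) ⊕ Fin 2 → K) 0 (0 : Fin j ⊕ Fin j → K) 0
        rw [sub_self] at h2
        rw [h2]
        simp
      rw [← h1] at h
      exact he0 (hu0.symm.trans (jn_inj h).1)
    · show quadFormMinus _ _ _ _ ((em K j a b x0).1.val *ᵥ _ - _) = 0
      rw [em_jn, jn_sub, hu0, quad_jn, hQe]
      simp
  · have h1 : Nat.card (Fin j ⊕ Fin j → K) = Nat.card K ^ (2 * (1 + j) - 2) := by
      rw [Nat.card_fun, Nat.card_sum, Nat.card_fin]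
      congr 1
      omega
    rw [← h1]
    refine Nat.card_le_card_of_injective (fun w => ⟨jn 0 w, ?_⟩) ?_
    · show (em K j a b x0).1.val *ᵥ _ = _
      rw [em_jn, mulVec_zero]
    · intro w w' hw
      exact (jn_inj (congrArg Subtype.val hw)).2

/-- **`p` odd, `p ∣ q² + 1`** -/
theorem vordP_four [Finite K] {a b : K}
    (hab : ∀ z₁ z₂ : K, z₁ ^ 2 + a * z₁ * z₂ + b * z₂ ^ 2 = 0 → z₁ = 0 ∧ z₂ = 0) {l : ℕ}
    (hl : 3 ≤ l) {p : ℕ} (hp : p.Prime) (hp2 : p ≠ 2) (hd : p ∣ Nat.card K ^ 2 + 1) :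
    H620.PNorm.VOrdP p (POmega K (quadFormMinus l K a b)) := by
  have : Fact p.Prime := ⟨hp⟩
  let _ := Fintype.ofFinite K
  have hpK : (p : K) ≠ 0 := by
    intro h0
    obtain ⟨r, hr⟩ := CharP.exists K
    have hr' : r.Prime := (CharP.char_is_prime_or_zero K r).resolve_right (CharP.char_ne_zero_of_finite K r)
    have h1 : r ∣ p := (CharP.cast_eq_zero_iff K r p).1 h0
    rw [Nat.prime_dvd_prime_iff_eq hr' hp] at h1
    subst h1
    have h2 : r ∣ Nat.card K := by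
      rw [← CharP.cast_eq_zero_iff K r, Nat.card_eq_fintype_card, FiniteField.cast_card_eq_zero]
    have h3 : r ∣ 1 := (Nat.dvd_add_right (dvd_pow h2 two_ne_zero)).1 hd
    exact hr'.one_lt.ne' (Nat.dvd_one.1 h3)
  obtain ⟨j, rfl⟩ : ∃ j, l = 1 + j := ⟨l - 1, by omega⟩
  obtain ⟨x, hx⟩ := gd_em hab (j := j) (by omega) hp hp2 hd
  exact vordP_of_gd hab hl hp hp2 hpK hx

end Cfsg.Agent.H679.VanO
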